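import Cfsg.Agent.H556.OZ.LocGeo
import Cfsg.Agent.H956.OZ.FacPlus
import Cfsg.Agent.H530.OZ.Row

/-!
# S4842: the input `hLOC` of the row `POmega⁺_{2n}`, `n ≥ 6` even (helper556)
-/

set_option autoImplicit false

namespace Cfsg.Agent.H556.OZ

open Cfsg Cfsg.Agent.H730.OZ Cfsg.Agent.H530.OZ Cfsg.Agent.LieClassical.OrthForms
open Cfsg.Agent.H182.Sign Cfsg.Agent.H182.Orth

universe u

/-- **`Cong p r 0` for the primes `r` of order `n f`**, `POmega⁺_{2n}`, `n ≥ 6` even -/
theorem loc_plus {S : Type u} [Group S] [Finite S] {F : Type} [Field F] [Fintype F] {n : ℕ} (hn : 6 ≤ n)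
    (heven : Even n) (e : S ≃* POmega F (quadFormPlus n F)) :
    ∀ (p f r : ℕ), p.Prime → Fintype.card F = p ^ f → Prim p (n * f) r → Cong p r 0 S := by
  intro p f r hp hcard hr
  obtain ⟨k, rfl⟩ := heven
  have hf : 0 < f := by
    rcases Nat.eq_zero_or_pos f with rfl | hf
    · exfalso
      rw [pow_zero] at hcard
      have : 1 < Fintype.card F := Fintype.one_lt_card
      omega
    · exact hf
  have hpf : Fact p.Prime := ⟨hp⟩
  have hch : CharP F p := by
    obtain ⟨p', hp'⟩ := CharP.exists F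
    obtain ⟨⟨f', hf'⟩, hp'', hcard'⟩ := FiniteField.card F p'
    simp only [PNat.mk_coe] at hcard'
    have h1 : p' ∣ p ^ f := by rw [← hcard, hcard']; exact dvd_pow_self p' hf'.ne'
    have h2 : p' = p := (Nat.prime_dvd_prime_iff_eq hp'' hp).1 (hp''.dvd_of_dvd_pow h1)
    rwa [h2] at hp'
  have i : POmega F ⇑(plusForm (k + k) F) ≃* S := by
    rw [coe_plusForm]
    exact e.symm
  have hr' : Prim p (2 * k * f) r := by rwa [two_mul]
  obtain ⟨h1, h2⟩ := hr'.conds hf
  have h3 := Cfsg.Agent.H956.OZ.fac_plus_even (F := F) hp hcard (k := k) (by omega) hr'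
  rw [two_mul k] at h3
  have hcS : Nat.card (POmega F (quadFormPlus (k + k) F)) = Nat.card S := (Nat.card_congr e.toEquiv).symm
  rw [hcS] at h3
  exact cong_plus (p := p) (k := k) (by omega) (sg_plusForm (k + k)) i hr.prime (by rw [hcard]; exact h1)
    (by rw [hcard]; exact h2) (by rw [hcard]; exact h3)

end Cfsg.Agent.H556.OZ
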