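import Cfsg.Agent.H5.OZ.LocTwo
import Cfsg.Agent.H530.OZ.Cover

/-!
# S4842: congruences from the defect groups over a central extension (helper556)

`cong_of_cover` : `π : H →* S` surjective with central kernel of exponent `c` prime to `p r`, `r ^ (2a)` the largest
possible power of `r` in `|S|`; two classes `X`, `Y` of elements of order `r ^ a` with `X ^ i ~ Y ^ j` only if they are trivial,
each centralizing a nontrivial `r'`-element, and no `p`-element centralizing two commuting elements of order `r`.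
Then `Cong p r 0 S`.
-/

set_option autoImplicit false

namespace Cfsg.Agent.H556.OZ

open Cfsg Subgroup Cfsg.Agent.H730.OZ

universe u

/-- two classes whose `r`-parts are the same element -/
theorem two_classes {G : Type u} [Group G] [Finite G] {r : ℕ} (hr : r.Prime) {D : Subgroup G} {A k : G} {a m : ℕ}
    (hA : orderOf A = r ^ a) (hAk : Commute A k) (hk1 : k ≠ 1) (hkm : k ^ m = 1) (hm : m.Coprime r)
    (hAD : ∀ t : G, t * A * t⁻¹ ∉ D) :
    ∃ g g' y y' : G, IsPPart r g y ∧ IsPPart r g' y' ∧ ¬ IsConj g g' ∧ (∀ t : G, t * y * t⁻¹ ∉ D) ∧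
      (∀ t : G, t * y' * t⁻¹ ∉ D) := by
  have hko : orderOf k ∣ m := orderOf_dvd_of_pow_eq_one hkm
  have hkr : (orderOf k).Coprime r := Nat.Coprime.coprime_dvd_left hko hm
  have hkr' : ¬ r ∣ orderOf k := fun h => by
    have := Nat.Coprime.eq_one_of_dvd (hkr.symm) h
    exact hr.one_lt.ne' this
  refine ⟨A, A * k, A, A, ⟨1, mul_one A, Commute.one_right A, ⟨a, hA⟩, ?_⟩, ⟨k, rfl, hAk, ⟨a, hA⟩, hkr'⟩, ?_, hAD, hAD⟩
  · rw [orderOf_one]
    exact fun h => hr.one_lt.ne' (Nat.dvd_one.1 h)
  · intro h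
    have h1 : orderOf A = orderOf (A * k) := H604.OZ.orderOf_eq_of_conj h
    rw [hAk.orderOf_mul_eq_mul_orderOf_of_coprime (by rw [hA]; exact (hkr.pow_right a).symm)] at h1
    have h2 : 0 < orderOf A := orderOf_pos A
    have h3 : orderOf k = 1 := by
      have : orderOf A * orderOf k = orderOf A * 1 := by rw [← h1, mul_one]
      exact Nat.eq_of_mul_eq_mul_left h2 this
    exact hk1 (orderOf_eq_one_iff.1 h3)

section cover

variable {H : Type*} {S : Type u} [Group H] [Finite H] [Group S] [Finite S] {π : H →* S} {p r c : ℕ}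

omit [Finite H] [Finite S] in
/-- the order of the image of an `r`-element -/
theorem orderOf_map_eq (hc : ∀ k ∈ π.ker, k ^ c = 1) (hcr : c.Coprime r) {z : H} {a : ℕ} (hz : orderOf z = r ^ a) :
    orderOf (π z) = r ^ a := by
  refine Nat.dvd_antisymm (hz ▸ orderOf_map_dvd π z) ?_
  have h1 : z ^ orderOf (π z) ∈ π.ker := by
    rw [MonoidHom.mem_ker, map_pow, pow_orderOf_eq_one]
  have h2 := hc _ h1
  rw [← pow_mul] at h2
  have h3 := orderOf_dvd_of_pow_eq_one h2
  rw [hz] at h3
  exact (Nat.Coprime.pow_left a hcr.symm).dvd_of_dvd_mul_right h3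

/-- **The congruence.** -/
theorem cong_of_cover (hπ : Function.Surjective π) (hr : r.Prime) (hp : p.Prime)
    (hcen : ∀ k ∈ π.ker, ∀ h : H, k * h = h * k)
    (hc : ∀ k ∈ π.ker, k ^ c = 1) (hcr : c.Coprime r) (hcp : c.Coprime p) {a : ℕ}
    (hfac : (Nat.card S).factorization r ≤ 2 * a)
    {l₁ l₂ : H} (hl₁ : orderOf l₁ = r) (hl₂ : orderOf l₂ = r) (hl : Commute l₁ l₂)
    (hC : ∀ x : H, Commute l₁ x → Commute l₂ x → ∀ j : ℕ, x ^ (p ^ j) = 1 → x = 1)
    {X Y K₁ K₂ : H} (hX : orderOf X = r ^ a) (hY : orderOf Y = r ^ a)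
    (hXY : ∀ i j : ℕ, IsConj (X ^ i) (Y ^ j) → X ^ i = 1)
    {m₁ m₂ : ℕ} (hXK : Commute X K₁) (hK₁ : K₁ ^ m₁ = 1) (hm₁ : m₁.Coprime r) (hπ₁ : π K₁ ≠ 1)
    (hYK : Commute Y K₂) (hK₂ : K₂ ^ m₂ = 1) (hm₂ : m₂.Coprime r) (hπ₂ : π K₂ ≠ 1) : Cong p r 0 S := by
  classical
  have hfr : Fact r.Prime := ⟨hr⟩
  have hXo := orderOf_map_eq hc hcr hX
  have hYo := orderOf_map_eq hc hcr hY
  refine H5.OZ.cong_loc hr ?_ ?_
  · intro R u hu hup
    -- the commuting elements of order `r`
    have hP : IsPGroup r (Subgroup.closure ({π l₁, π l₂} : Set S)) := by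
      have hcomm : ∀ x ∈ ({π l₁, π l₂} : Set S), ∀ y ∈ ({π l₁, π l₂} : Set S), x * y = y * x := by
        rintro x (rfl | rfl) y (rfl | rfl)
        · rfl
        · exact (hl.map π).eq
        · exact (hl.map π).eq.symm
        · rfl
      intro x
      have hx : ∀ x ∈ Subgroup.closure ({π l₁, π l₂} : Set S), x ^ r = 1 := by
        intro x hx
        have hxy : ∀ x ∈ Subgroup.closure ({π l₁, π l₂} : Set S), ∀ y ∈ Subgroup.closure ({π l₁, π l₂} : Set S),
            Commute x y := by
          have h0 := Subgroup.isMulCommutative_closure hcomm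
          intro x hx y hy
          exact congrArg Subtype.val (h0.is_comm.comm (⟨x, hx⟩ : Subgroup.closure ({π l₁, π l₂} : Set S)) ⟨y, hy⟩)
        induction hx using Subgroup.closure_induction with
        | mem x hx =>
          rcases hx with rfl | rfl
          · rw [← map_pow, ← hl₁, pow_orderOf_eq_one, map_one]
          · rw [← map_pow, ← hl₂, pow_orderOf_eq_one, map_one]
        | one => exact one_pow r
        | mul x y hx hy hx1 hy1 => rw [(hxy x hx y hy).mul_pow, hx1, hy1, one_mul]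
        | inv x hx hx1 => rw [inv_pow, hx1, inv_one]
      refine ⟨1, Subtype.ext ?_⟩
      rw [pow_one]
      exact hx _ x.2
    obtain ⟨R₀, hR₀⟩ := hP.exists_le_sylow
    obtain ⟨g, hg⟩ := MulAction.exists_smul_eq S R₀ R
    -- conjugate `u` back
    have hmem : ∀ x ∈ (R₀ : Subgroup S), g * x * g⁻¹ ∈ (R : Subgroup S) := by
      intro x hx
      rw [← hg, Sylow.coe_subgroup_smul]
      exact Subgroup.smul_mem_pointwise_smul x (MulAut.conj g) _ hx
    have hcomm : ∀ x ∈ (R₀ : Subgroup S), Commute x (g⁻¹ * u * g) := by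
      intro x hx
      have h1 : (g * x * g⁻¹) * u = u * (g * x * g⁻¹) := Subgroup.mem_centralizer_iff.1 hu _ (hmem x hx)
      show x * (g⁻¹ * u * g) = g⁻¹ * u * g * x
      have h2 : x * (g⁻¹ * u * g) = g⁻¹ * ((g * x * g⁻¹) * u) * g := by group
      rw [h2, h1]
      group
    obtain ⟨x, hx⟩ := hπ (g⁻¹ * u * g)
    have hx₁ : Commute l₁ x := H530.OZ.commute_of_map hcen hc hcr hl₁ (by
      rw [hx]
      exact hcomm _ (hR₀ (Subgroup.subset_closure (Or.inl rfl))))
    have hx₂ : Commute l₂ x := H530.OZ.commute_of_map hcen hc hcr hl₂ (by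
      rw [hx]
      exact hcomm _ (hR₀ (Subgroup.subset_closure (Or.inr rfl))))
    obtain ⟨j, hj⟩ := hup
    have h1 : (g⁻¹ * u * g) ^ (p ^ j) = 1 := by
      have : g⁻¹ * u * g = g⁻¹ * u * g⁻¹⁻¹ := by rw [inv_inv]
      rw [this, conj_pow, ← hj, pow_orderOf_eq_one, mul_one, mul_inv_cancel]
    have h2 : (x ^ c) ^ (p ^ j) = 1 := by
      have h3 : x ^ (p ^ j) ∈ π.ker := by rw [MonoidHom.mem_ker, map_pow, hx, h1]
      rw [← pow_mul, mul_comm, pow_mul]
      exact hc _ h3
    have h3 : x ^ c = 1 := hC _ (hx₁.pow_right c) (hx₂.pow_right c) j h2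
    have h4 : (g⁻¹ * u * g) ^ c = 1 := by rw [← hx, ← map_pow, h3, map_one]
    have h5 : orderOf (g⁻¹ * u * g) = 1 := by
      have h6 := orderOf_dvd_of_pow_eq_one h1
      have h7 := orderOf_dvd_of_pow_eq_one h4
      exact Nat.dvd_one.1 ((hcp.pow_right j) ▸ Nat.dvd_gcd h7 h6)
    have h6 : g⁻¹ * u * g = 1 := orderOf_eq_one_iff.1 h5
    have h7 : u = g * (g⁻¹ * u * g) * g⁻¹ := by group
    rw [h7, h6]
    group
  · intro D hD hDS
    by_cases h1 : ∃ t : S, t * π X * t⁻¹ ∈ D
    · by_cases h2 : ∃ t : S, t * π Y * t⁻¹ ∈ D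
      · exfalso
        obtain ⟨t, ht⟩ := h1
        obtain ⟨s, hs⟩ := h2
        set A := t * π X * t⁻¹ with hA
        set B := s * π Y * s⁻¹ with hB
        have hAo : orderOf A = r ^ a := by
          rw [← hXo]
          exact (H604.OZ.orderOf_eq_of_conj (isConj_iff.2 ⟨t, rfl⟩)).symm
        have hBo : orderOf B = r ^ a := by
          rw [← hYo]
          exact (H604.OZ.orderOf_eq_of_conj (isConj_iff.2 ⟨s, rfl⟩)).symm
        -- trivial intersection
        have hAB : ∀ i j : ℕ, A ^ i = B ^ j → A ^ i = 1 := by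
          intro i j hij
          have e1 : A ^ i = t * π (X ^ i) * t⁻¹ := by rw [hA, conj_pow, map_pow]
          have e2 : B ^ j = s * π (Y ^ j) * s⁻¹ := by rw [hB, conj_pow, map_pow]
          obtain ⟨w, hw⟩ := hπ (s⁻¹ * t)
          have e3 : π (w * X ^ i * w⁻¹) = π (Y ^ j) := by
            rw [map_mul, map_mul, map_inv, hw]
            have e4 : π (Y ^ j) = s⁻¹ * (s * π (Y ^ j) * s⁻¹) * s := by group
            rw [e4, ← e2, ← hij, e1]
            group
          have hk : w * X ^ i * w⁻¹ * (Y ^ j)⁻¹ ∈ π.ker := by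
            rw [MonoidHom.mem_ker, map_mul, e3, map_inv, mul_inv_cancel]
          set k := w * X ^ i * w⁻¹ * (Y ^ j)⁻¹ with hkdef
          have h5 : w * X ^ i * w⁻¹ = k * Y ^ j := by rw [hkdef]; group
          have hXa : X ^ (r ^ a) = 1 := by rw [← hX, pow_orderOf_eq_one]
          have hYa : Y ^ (r ^ a) = 1 := by rw [← hY, pow_orderOf_eq_one]
          have h6 : (w * X ^ i * w⁻¹) ^ (r ^ a) = 1 := by
            rw [conj_pow, ← pow_mul, mul_comm i, pow_mul, hXa, one_pow, mul_one, mul_inv_cancel]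
          have h7 : k ^ (r ^ a) = 1 := by
            have h8 : Commute k (Y ^ j) := hcen k hk _
            rwa [h5, h8.mul_pow, ← pow_mul, mul_comm j, pow_mul, hYa, one_pow, mul_one] at h6
          have h8 : k = 1 := by
            have h9 := orderOf_dvd_of_pow_eq_one (hc k hk)
            have h10 := orderOf_dvd_of_pow_eq_one h7
            have h11 : orderOf k = 1 := Nat.dvd_one.1 ((hcr.pow_right a) ▸ Nat.dvd_gcd h9 h10)
            exact orderOf_eq_one_iff.1 h11
          rw [h8, one_mul] at h5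
          have h9 := hXY i j (isConj_iff.2 ⟨w, h5⟩)
          rw [e1, h9, map_one, mul_one, mul_inv_cancel]
        -- the product set
        let f : Fin (r ^ a) × Fin (r ^ a) → D := fun q => ⟨A ^ (q.1 : ℕ) * B ^ (q.2 : ℕ),
          D.mul_mem (D.pow_mem ht _) (D.pow_mem hs _)⟩
        have hf : Function.Injective f := by
          rintro ⟨⟨i, hi⟩, ⟨j, hj⟩⟩ ⟨⟨i', hi'⟩, ⟨j', hj'⟩⟩ hij
          have e1 : A ^ i * B ^ j = A ^ i' * B ^ j' := congrArg Subtype.val hij
          have key : ∀ i j i' j' : ℕ, i ≤ i' → i' < r ^ a → j < r ^ a → j' < r ^ a →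
              A ^ i * B ^ j = A ^ i' * B ^ j' → i = i' ∧ j = j' := by
            intro i j i' j' hii' hi' hj hj' e1
            have hBa : B ^ (r ^ a) = 1 := by rw [← hBo, pow_orderOf_eq_one]
            have e2 : A ^ (i' - i) = B ^ (j + (r ^ a - j')) := by
              have e3 : A ^ i' = A ^ i * A ^ (i' - i) := by rw [← pow_add, Nat.add_sub_cancel' hii']
              rw [e3, mul_assoc, mul_right_inj] at e1
              rw [pow_add, e1, mul_assoc, ← pow_add, Nat.add_sub_cancel' hj'.le, hBa, mul_one]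
            have e3 := hAB _ _ e2
            have e4 := orderOf_dvd_of_pow_eq_one e3
            rw [hAo] at e4
            have e5 : i' - i = 0 := Nat.eq_zero_of_dvd_of_lt e4 (by omega)
            have e6 : i = i' := by omega
            subst e6
            refine ⟨rfl, ?_⟩
            rw [mul_right_inj] at e1
            exact pow_injOn_Iio_orderOf (by rw [Set.mem_Iio, hBo]; exact hj) (by rw [Set.mem_Iio, hBo]; exact hj') e1
          rcases le_total i i' with hle | hle
          · obtain ⟨e2, e3⟩ := key i j i' j' hle hi' hj hj' e1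
            subst e2 e3
            rfl
          · obtain ⟨e2, e3⟩ := key i' j' i j hle hi hj' hj e1.symm
            subst e2 e3
            rfl
        have hcD : r ^ (2 * a) ≤ Nat.card D := by
          have h3 := Nat.card_le_card_of_injective f hf
          rwa [Nat.card_prod, Nat.card_eq_fintype_card, Fintype.card_fin, ← pow_add, ← two_mul] at h3
        obtain ⟨R, hR⟩ := hD.exists_le_sylow
        refine hDS R ?_
        symm
        apply Subgroup.eq_of_le_of_card_ge hR
        rw [R.card_eq_multiplicity]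
        exact (Nat.pow_le_pow_right hr.pos hfac).trans hcD
      · push Not at h2
        exact two_classes hr hYo (hYK.map π) hπ₂ (by rw [← map_pow, hK₂, map_one]) hm₂ h2
    · push Not at h1
      exact two_classes hr hXo (hXK.map π) hπ₁ (by rw [← map_pow, hK₁, map_one]) hm₁ h1

end cover

end Cfsg.Agent.H556.OZ
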