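import Cfsg.Agent.H556.OZ.LocCover
import Cfsg.Agent.H530.OZ.Geo

/-!
# S4842: the congruence at the primes dividing `q ^ k + 1`, dimension `4k`, sign `+` (helper556)

* `exists_w` : an isometry `w` of a minus form in dimension `2k` with `w ^ (q ^ (k-1) - 1) = 1`, `w ^ 2 ≠ 1`;
* `exists_yz` : commuting isometries of a plus form in dimension `4k`, one of order `r ^ a` with fixed-point-free
  nontrivial powers, the other of order dividing `q ^ k - 1` with a non-scalar square;
* `cong_plus` : the congruence, from the order of the `r`-part.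
-/

set_option autoImplicit false

namespace Cfsg.Agent.H556.OZ

open Module QuadraticMap Cfsg Subgroup
open Cfsg.Agent.LieClassical.OrthCore Cfsg.Agent.LieClassical.OrthTrans Cfsg.Agent.H890.SpParity
open Cfsg.Agent.LieClassical.OrthFinite
open Cfsg.Agent.H182.Sign Cfsg.Agent.H182.Orth Cfsg.Agent.H530.CJ Cfsg.Agent.H93.CJ Cfsg.Agent.H93.PReg
open Cfsg.Agent.H730.OZ Cfsg.Agent.H530.OZ

section tr

variable {F V W : Type*} [Field F] [AddCommGroup V] [Module F V] [AddCommGroup W] [Module F W]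

/-- transport of the automorphisms -/
def tr (e : V ≃ₗ[F] W) : (V ≃ₗ[F] V) →* (W ≃ₗ[F] W) where
  toFun := fun g => (e.symm.trans g).trans e
  map_one' := by
    refine LinearEquiv.ext fun v => ?_
    show e (e.symm v) = v
    exact e.apply_symm_apply v
  map_mul' := by
    intro g h
    refine LinearEquiv.ext fun v => ?_
    show e (g (h (e.symm v))) = e (g (e.symm (e (h (e.symm v)))))
    rw [e.symm_apply_apply]

theorem tr_apply (e : V ≃ₗ[F] W) (g : V ≃ₗ[F] V) (w : W) : tr e g w = e (g (e.symm w)) := rfl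

theorem tr_injective (e : V ≃ₗ[F] W) : Function.Injective (tr e) := by
  intro g h hgh
  refine LinearEquiv.ext fun v => ?_
  have h1 := LinearEquiv.congr_fun hgh (e v)
  rw [tr_apply, tr_apply, e.symm_apply_apply] at h1
  exact e.injective h1

theorem tr_mem_O {Q : QuadraticForm F V} {Q' : QuadraticForm F W} {e : V ≃ₗ[F] W} (he : ∀ v, Q' (e v) = Q v)
    {g : V ≃ₗ[F] V} (hg : g ∈ O Q) : tr e g ∈ O Q' := by
  intro w
  rw [tr_apply, he, hg, ← he, e.apply_symm_apply]

end tr

theorem sg_neg_one {F : Type} [Field F] [Fintype F] {K L : Type} [Field K] [Finite K] [Algebra F K] [Field L] [Finite L]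
    [Algebra F L] {k : ℕ} (hk : finrank F K = k) {Q : QuadraticForm F L} (hQ : Sg Q 1 (-1)) :
    Sg (prodForm (tq F K) Q) (k + 1) (-1) := by
  have := (sg_tq F K hk).prod hQ
  rwa [one_mul] at this

/-- an isometry of a minus form -/
theorem exists_w {F : Type} [Field F] [Fintype F] {U : Type} [AddCommGroup U] [Module F U] [Finite U]
    {Q : QuadraticForm F U} {k : ℕ} (hk : 3 ≤ k) (hQ : Sg Q k (-1)) :
    ∃ w ∈ O Q, w ^ (Fintype.card F ^ (k - 1) - 1) = 1 ∧ w ^ 2 ≠ 1 := by
  obtain ⟨K, _, _, b, hKf, y, hK, hy⟩ := Singer.exists_ext F (k - 1) (by omega)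
  have hrk : Module.finrank F K = k - 1 := by rw [Module.finrank_eq_card_basis b, Fintype.card_fin]
  obtain ⟨L, _, _, _, Q₁, -, hQ₁, -, -⟩ := exists_torusM F (k := 1) one_ne_zero
  have hs := sg_neg_one hrk hQ₁
  rw [show k - 1 + 1 = k by omega] at hs
  obtain ⟨e, he⟩ := hs.exists_equiv hQ
  have hF : 2 ≤ Fintype.card F := Fintype.one_lt_card
  have hpw : ∀ m : ℕ, tr e (zz L (dw y)) ^ m = tr e (zz L (dw (y ^ m))) := by
    intro m
    rw [← map_pow, zz_pow, dw_pow]
  refine ⟨tr e (zz L (dw y)), tr_mem_O he (zz_mem_O (dw_mem_O y)), ?_, ?_⟩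
  · rw [hpw, ← hy, pow_orderOf_eq_one]
    have : (zz L (dw (1 : Kˣ)) : ((K × K) × L) ≃ₗ[F] ((K × K) × L)) = 1 := by
      refine LinearEquiv.ext fun v => ?_
      refine Prod.ext ?_ rfl
      show (dw (1 : Kˣ) : (K × K) ≃ₗ[F] (K × K)) v.1 = v.1
      rw [dw_apply, inv_one, Units.val_one, one_mul, one_mul]
    rw [this, map_one]
  · intro h
    rw [hpw] at h
    have h1 := tr_injective e (h.trans (map_one (tr e)).symm)
    have h2 : ((y ^ 2 : Kˣ) : K) * 1 = 1 := congrArg (fun v : (K × K) × L => v.1.1) (LinearEquiv.congr_fun h1 ((1, 0), 0))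
    have h3 : y ^ 2 = 1 := Units.ext (by rw [mul_one] at h2; exact h2)
    have h4 := orderOf_dvd_of_pow_eq_one h3
    rw [hy] at h4
    have h5 := Nat.le_of_dvd two_pos h4
    have h6 : 2 ^ 2 ≤ Fintype.card F ^ (k - 1) := (Nat.pow_le_pow_left hF 2).trans (Nat.pow_le_pow_right (by omega) (by omega))
    omega

/-- commuting isometries of a plus form -/
theorem exists_yz {F : Type} [Field F] [Fintype F] {V : Type} [AddCommGroup V] [Module F V] [Finite V]
    {Q : QuadraticForm F V} {k : ℕ} (hk : 3 ≤ k) (hQ : Sg Q (k + k) 1) {m : ℕ} (hm : m ∣ Fintype.card F ^ k + 1) :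
    ∃ Y Z : V ≃ₗ[F] V, Y ∈ O Q ∧ Z ∈ O Q ∧ Commute Y Z ∧ orderOf Y = m ∧ (∀ (j : ℕ) (v : V), (Y ^ j) v = v → v = 0 ∨ Y ^ j = 1) ∧
      Z ^ (Fintype.card F ^ k - 1) = 1 ∧ ∀ s : F, ¬ ∀ v, (Z ^ 2) v = s • v := by
  obtain ⟨K, _, _, b, hKf, y, hK, hy⟩ := Singer.exists_ext F (k + k) (by omega)
  have hrk : Module.finrank F K = k + k := by rw [Module.finrank_eq_card_basis b, Fintype.card_fin]
  obtain ⟨e, he⟩ := (sg_tq F K hrk).exists_equiv hQ
  have hF : 2 ≤ Fintype.card F := Fintype.one_lt_card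
  have hq8 : 2 ^ 3 ≤ Fintype.card F ^ k := (Nat.pow_le_pow_left hF 3).trans (Nat.pow_le_pow_right (by omega) (by omega))
  have hqq : Fintype.card F ^ (k + k) - 1 = (Fintype.card F ^ k + 1) * (Fintype.card F ^ k - 1) := by
    rw [pow_add]
    have := Nat.sq_sub_sq (Fintype.card F ^ k) 1
    simpa [pow_two] using this
  have hone : tr e (dw (1 : Kˣ) : (K × K) ≃ₗ[F] (K × K)) = 1 := by
    have : (dw (1 : Kˣ) : (K × K) ≃ₗ[F] (K × K)) = 1 := by
      refine LinearEquiv.ext fun v => ?_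
      rw [dw_apply, inv_one, Units.val_one, one_mul, one_mul]
      rfl
    rw [this, map_one]
  have hpw : ∀ (u : Kˣ) (m : ℕ), tr e (dw u) ^ m = tr e (dw (u ^ m)) := by
    intro u m
    rw [← map_pow, dw_pow]
  have hinj : ∀ u : Kˣ, tr e (dw u : (K × K) ≃ₗ[F] (K × K)) = 1 → u = 1 := by
    intro u h
    have h1 := tr_injective e (h.trans (map_one (tr e)).symm)
    have h2 : (u : K) * 1 = 1 := congrArg Prod.fst (LinearEquiv.congr_fun h1 (1, 0))
    exact Units.ext (by rw [mul_one] at h2; exact h2)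
  obtain ⟨s, hs⟩ := hm
  have hs0 : s ≠ 0 := by
    rintro rfl
    omega
  have hm0 : m ≠ 0 := by
    rintro rfl
    omega
  set c : Kˣ := y ^ (s * (Fintype.card F ^ k - 1)) with hc
  have hco : orderOf c = m := by
    have h1 : m * (s * (Fintype.card F ^ k - 1)) = Fintype.card F ^ (k + k) - 1 := by
      rw [hqq, hs, mul_assoc]
    rw [hc, orderOf_pow_of_dvd (Nat.mul_ne_zero hs0 (by omega)) (by rw [hy, ← h1]; exact Dvd.intro_left m rfl), hy, ← h1,
      Nat.mul_div_cancel _ (Nat.mul_pos (Nat.pos_of_ne_zero hs0) (by omega))]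
  set d : Kˣ := y ^ (Fintype.card F ^ k + 1) with hd
  have hdo : orderOf d = Fintype.card F ^ k - 1 := by
    rw [hd, orderOf_pow_of_dvd (by omega) (by rw [hy, hqq]; exact Dvd.intro _ rfl), hy, hqq,
      Nat.mul_div_cancel_left _ (by omega)]
  refine ⟨tr e (dw c), tr e (dw d), tr_mem_O he (dw_mem_O c), tr_mem_O he (dw_mem_O d), ?_, ?_, ?_, ?_, ?_⟩
  · have h1 : Commute (dw c : (K × K) ≃ₗ[F] (K × K)) (dw d) := by
      refine LinearEquiv.ext fun v => ?_
      show (dw c : (K × K) ≃ₗ[F] (K × K)) ((dw d : (K × K) ≃ₗ[F] (K × K)) v) = (dw d : (K × K) ≃ₗ[F] (K × K)) ((dw c : (K × K) ≃ₗ[F] (K × K)) v)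
      rw [dw_apply, dw_apply, dw_apply, dw_apply]
      refine Prod.ext ?_ ?_
      · show (c : K) * ((d : K) * v.1) = (d : K) * ((c : K) * v.1)
        ring
      · show ((c⁻¹ : Kˣ) : K) * (((d⁻¹ : Kˣ) : K) * v.2) = ((d⁻¹ : Kˣ) : K) * (((c⁻¹ : Kˣ) : K) * v.2)
        ring
    exact h1.map (tr e)
  · apply Nat.dvd_antisymm
    · apply orderOf_dvd_of_pow_eq_one
      rw [hpw, ← hco, pow_orderOf_eq_one, hone]
    · have h1 := pow_orderOf_eq_one (tr e (dw c : (K × K) ≃ₗ[F] (K × K)))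
      rw [hpw] at h1
      have h2 := orderOf_dvd_of_pow_eq_one (hinj _ h1)
      rwa [hco] at h2
  · intro j v hv
    by_cases hcj : c ^ j = 1
    · right
      rw [hpw, hcj, hone]
    · left
      rw [hpw, tr_apply, ← LinearEquiv.eq_symm_apply, dw_apply] at hv
      have e1 : ((c ^ j : Kˣ) : K) * (e.symm v).1 = (e.symm v).1 := congrArg Prod.fst hv
      have e2 : (((c ^ j)⁻¹ : Kˣ) : K) * (e.symm v).2 = (e.symm v).2 := congrArg Prod.snd hv
      have h1 : ((c ^ j : Kˣ) : K) ≠ 1 := fun h => hcj (Units.ext h)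
      have h2 : (((c ^ j)⁻¹ : Kˣ) : K) ≠ 1 := fun h => hcj (inv_eq_one.1 (Units.ext h))
      have h3 : (e.symm v).1 = 0 := by
        have h4 : (((c ^ j : Kˣ) : K) - 1) * (e.symm v).1 = 0 := by linear_combination e1
        exact (mul_eq_zero.1 h4).resolve_left (sub_ne_zero.2 h1)
      have h3' : (e.symm v).2 = 0 := by
        have h4 : ((((c ^ j)⁻¹ : Kˣ) : K) - 1) * (e.symm v).2 = 0 := by linear_combination e2
        exact (mul_eq_zero.1 h4).resolve_left (sub_ne_zero.2 h2)
      have h5 : e.symm v = 0 := Prod.ext h3 h3'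
      exact (LinearEquiv.map_eq_zero_iff _).1 h5
  · rw [hpw, ← hdo, pow_orderOf_eq_one, hone]
  · intro s h
    rw [hpw] at h
    have h1 := h (e (1, 1))
    rw [tr_apply, e.symm_apply_apply, ← map_smul] at h1
    have h2 := e.injective h1
    rw [dw_apply] at h2
    have e1 : ((d ^ 2 : Kˣ) : K) * 1 = s • 1 := congrArg Prod.fst h2
    have e2 : (((d ^ 2)⁻¹ : Kˣ) : K) * 1 = s • 1 := congrArg Prod.snd h2
    have e3 : d ^ 2 = (d ^ 2)⁻¹ := Units.ext (by
      rw [mul_one] at e1 e2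
      rw [e1, e2])
    have e4 : d ^ 4 = 1 := by
      have : d ^ 4 = d ^ 2 * d ^ 2 := by rw [← pow_add]
      rw [this]
      nth_rw 2 [e3]
      exact mul_inv_cancel _
    have e5 := orderOf_dvd_of_pow_eq_one e4
    rw [hdo] at e5
    have := Nat.le_of_dvd (by norm_num) e5
    omega

/-- the kernel of the projection -/
theorem ker_facts {F V : Type*} [Field F] [AddCommGroup V] [Module F V] {Q : QuadraticForm F V} {p : ℕ} [Fact p.Prime]
    [CharP F p] (hnd : Nondeg Q) (hne : ∃ v : V, v ≠ 0) {S : Type*} [Group S] {π : E Q →* S}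
    (hker : ∀ k : E Q, k ∈ π.ker ↔ ∃ a : F, ∀ v, (k : V ≃ₗ[F] V) v = a • v) :
    (∀ k ∈ π.ker, ∀ h : E Q, k * h = h * k) ∧ ∀ k ∈ π.ker, k ^ 2 = 1 ∧ (p = 2 → k = 1) := by
  constructor
  · intro k hk h
    obtain ⟨a, ha⟩ := (hker k).1 hk
    apply Subtype.ext
    refine LinearEquiv.ext fun v => ?_
    show (k : V ≃ₗ[F] V) ((h : V ≃ₗ[F] V) v) = (h : V ≃ₗ[F] V) ((k : V ≃ₗ[F] V) v)
    rw [ha, ha, map_smul]
  · intro k hk
    obtain ⟨a, ha⟩ := (hker k).1 hk
    -- a vector with nonzero value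
    obtain ⟨w, hw⟩ : ∃ w : V, Q w ≠ 0 := by
      by_contra hcon
      push Not at hcon
      obtain ⟨v, hv⟩ := hne
      apply hv
      exact hnd _ fun y => by rw [QuadraticMap.polar, hcon, hcon, hcon, sub_zero, sub_zero]
    have h1 := E_le_O k.2 w
    rw [ha, QuadraticMap.map_smul, smul_eq_mul] at h1
    have h2 : a * a = 1 := by
      apply mul_right_cancel₀ hw
      rw [h1, one_mul]
    constructor
    · apply Subtype.ext
      show (k : V ≃ₗ[F] V) ^ 2 = 1
      refine LinearEquiv.ext fun v => ?_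
      rw [pow_two, LinearEquiv.mul_apply, ha, ha, smul_smul, h2, one_smul]
      rfl
    · rintro rfl
      have h3 : a = 1 := by
        have h4 : (a - 1) ^ 2 = 0 := by
          rw [sub_pow_char, one_pow, pow_two, h2, sub_self]
        exact sub_eq_zero.1 (pow_eq_zero_iff two_ne_zero |>.1 h4)
      apply Subtype.ext
      refine LinearEquiv.ext fun v => ?_
      rw [ha, h3, one_smul]
      rfl

section mk2

variable {F U P : Type*} [Field F] [AddCommGroup U] [Module F U] [AddCommGroup P] [Module F P]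

/-- the extension by the identity on the first factor -/
def yy (U : Type*) [AddCommGroup U] [Module F U] (z : P ≃ₗ[F] P) : (U × P) ≃ₗ[F] (U × P) :=
  (LinearEquiv.refl F U).prodCongr z

theorem yy_pow (z : P ≃ₗ[F] P) (k : ℕ) : yy U z ^ k = yy U (z ^ k) := by
  induction k with
  | zero => rfl
  | succ k ih => rw [pow_succ, ih, pow_succ]; rfl

/-- swapping the factors -/
theorem block' {z : P ≃ₗ[F] P} {t : U ≃ₗ[F] U} {s : P ≃ₗ[F] P} (hc : Commute (t.prodCongr s : (U × P) ≃ₗ[F] (U × P)) (yy U z)) : Commute s z := by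
  refine LinearEquiv.ext fun v => ?_
  exact congrArg Prod.snd (LinearEquiv.congr_fun hc.eq (0, v))

end mk2

theorem mulL_pow {F L : Type*} [Field F] [Field L] [Algebra F L] (c : L) (hc : c ≠ 0) (m : ℕ) (v : L) :
    (mulL F c hc ^ m) v = c ^ m * v := by
  induction m with
  | zero => rw [pow_zero, pow_zero, one_mul]; rfl
  | succ m ih => rw [pow_succ', LinearEquiv.mul_apply, ih, mulL_apply, pow_succ', mul_assoc]

universe u

/-- **The congruence at the primes dividing `q ^ k + 1`.** -/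
theorem cong_plus {F : Type} [Field F] [Fintype F] {p : ℕ} [Fact p.Prime] [CharP F p] {k : ℕ} (hk : 3 ≤ k)
    {ι : Type} [Fintype ι] [DecidableEq ι] {R : QuadraticForm F (ι → F)} (hR : Sg R (k + k) 1)
    {S : Type u} [Group S] [Finite S] (i : POmega F ⇑R ≃* S) {r : ℕ} (hr : r.Prime)
    (hr1 : r ∣ Fintype.card F ^ k + 1) (hr2 : ∀ i : ℕ, 0 < i → i < 2 * k → ¬ r ∣ Fintype.card F ^ i - 1)
    (hfac : (Nat.card S).factorization r ≤ 2 * (Fintype.card F ^ k + 1).factorization r) : Cong p r 0 S := by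
  have hpp : p.Prime := Fact.out
  have hfr : Fact r.Prime := ⟨hr⟩
  obtain ⟨L, _, _, _, Q, u, hQ, hu, huQ⟩ := exists_torusM F (k := k) (by omega)
  have hQQ : Sg (prodForm Q Q) (k + k) 1 := by
    have := hQ.prod hQ
    rwa [neg_mul_neg, one_mul] at this
  obtain ⟨hG, π, hπ, hker⟩ := exists_pi' hQQ (by omega) hR i
  have hdL : finrank F L = 2 * k := hQ.dim
  have hcF : Nat.card F = Fintype.card F := Nat.card_eq_fintype_card
  have hF : 2 ≤ Fintype.card F := Fintype.one_lt_card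
  have hfdL : FiniteDimensional F L := Module.Finite.of_finite
  have hfin : Finite (E (prodForm Q Q)) := by
    have : Finite ((L × L) ≃ₗ[F] (L × L)) :=
      Finite.of_injective (fun g : (L × L) ≃ₗ[F] (L × L) => (g : L × L → L × L)) DFunLike.coe_injective
    infer_instance
  have hchL : CharP L p := charP_of_injective_algebraMap (algebraMap F L).injective p
  obtain ⟨hkc, hk2⟩ := ker_facts (p := p) hQQ.nondeg ⟨(1, 0), fun h => one_ne_zero (congrArg Prod.fst h)⟩ hker
  -- the prime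
  have hrF : ¬ r ∣ Fintype.card F := by
    intro h1
    have h2 : r ∣ 1 := (Nat.dvd_add_right (Dvd.dvd.pow h1 (by omega))).1 hr1
    exact hr.one_lt.ne' (Nat.dvd_one.1 h2)
  have hr2' : r ≠ 2 := by
    rintro rfl
    have h1 := hr2 1 one_pos (by omega)
    rw [pow_one] at h1
    rcases Nat.even_or_odd (Fintype.card F) with h | h
    · exact hrF h.two_dvd
    · exact h1 (Nat.Odd.sub_odd h odd_one).two_dvd
  have hodd : Odd r := hr.odd_of_ne_two hr2'
  have hnd : ∀ j : ℕ, 0 < j → j < 2 * k → (Fintype.card F ^ j - 1).Coprime r := fun j h1 h2 =>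
    ((Nat.Prime.coprime_iff_not_dvd hr).2 (hr2 j h1 h2)).symm
  set c : ℕ := if p = 2 then 1 else 2 with hcdef
  have hcc : ∀ k ∈ π.ker, k ^ c = 1 := by
    intro k hk
    rw [hcdef]
    split_ifs with hp2
    · rw [pow_one]; exact (hk2 k hk).2 hp2
    · exact (hk2 k hk).1
  have hcr : c.Coprime r := by
    rw [hcdef]
    split_ifs with hp2
    · exact Nat.coprime_one_left r
    · exact (Nat.coprime_primes Nat.prime_two hr).2 (Ne.symm hr2')
  have hcp : c.Coprime p := by
    rw [hcdef]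
    split_ifs with hp2
    · exact Nat.coprime_one_left p
    · exact (Nat.coprime_primes Nat.prime_two hpp).2 (Ne.symm hp2)
  -- the torus
  have hu0 : u ≠ 0 := by
    rintro rfl
    have h1 := pow_orderOf_eq_one (0 : L)
    rw [hu, pow_succ, mul_zero] at h1
    exact zero_ne_one h1
  have hpowQ : ∀ (m : ℕ) (v : L), Q (u ^ m * v) = Q v := by
    intro m
    induction m with
    | zero => intro v; rw [pow_zero, one_mul]
    | succ m ih => intro v; rw [pow_succ', mul_assoc, huQ, ih]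
  have hel : ∀ m : ℕ, m ∣ Fintype.card F ^ k + 1 → ∃ s : ℕ, orderOf (u ^ s) = m := by
    rintro m ⟨s, hs⟩
    have hs0 : s ≠ 0 := by
      rintro rfl
      omega
    refine ⟨s, ?_⟩
    rw [orderOf_pow_of_dvd hs0 (by rw [hu, hs]; exact Dvd.intro_left m rfl), hu, hs,
      Nat.mul_div_cancel _ (Nat.pos_of_ne_zero hs0)]
  obtain ⟨s, hlamo⟩ := hel r hr1
  set lam : L := u ^ s with hlam
  have hlam0 : lam ≠ 0 := pow_ne_zero _ hu0
  have hT := torU_minus hlam0 hlamo (by
    intro i hi hi2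
    rw [hcF]
    rw [hdL] at hi2
    exact hr2 i hi hi2) (hpowQ s)
  have hfix := hT.fix_eq hr.one_lt
  set a : ℕ := (Fintype.card F ^ k + 1).factorization r with ha
  have hra : r ^ a ∣ Fintype.card F ^ k + 1 := Nat.ordProj_dvd _ _
  obtain ⟨s', hco⟩ := hel (r ^ a) hra
  set cc : L := u ^ s' with hccdef
  have hcc0 : cc ≠ 0 := pow_ne_zero _ hu0
  have hccO : mulL F cc hcc0 ∈ O Q := hpowQ s'
  have hccp : mulL F cc hcc0 ^ (r ^ a) = 1 := by
    refine LinearEquiv.ext fun v => ?_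
    rw [mulL_pow, ← hco, pow_orderOf_eq_one, one_mul]
    rfl
  have hodda : Odd (r ^ a) := hodd.pow
  -- the elements of order `r`
  set l₁ : E (prodForm Q Q) := ⟨zz L (mulL F lam hlam0), mem_of_odd hG hT.memO hodd hT.pow_eq⟩ with hl₁
  have hyyO : ∀ {t : L ≃ₗ[F] L}, t ∈ O Q → yy L t ∈ O (prodForm Q Q) := by
    intro t ht v
    rw [prodForm_apply, prodForm_apply]
    show Q v.1 + Q (t v.2) = _
    rw [ht]
  have hyy1 : (yy L (1 : L ≃ₗ[F] L) : (L × L) ≃ₗ[F] (L × L)) = 1 := rfl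
  have hzz1 : (zz L (1 : L ≃ₗ[F] L) : (L × L) ≃ₗ[F] (L × L)) = 1 := rfl
  set l₂ : E (prodForm Q Q) := ⟨yy L (mulL F lam hlam0), Cfsg.Agent.ETable.Orth.mem_E_of_pow hG (hyyO hT.memO) hodd (by
    rw [yy_pow, hT.pow_eq, hyy1])⟩ with hl₂
  have hmne : mulL F lam hlam0 ≠ 1 := by
    intro h
    exact one_ne_zero (hfix 1 (LinearEquiv.congr_fun h 1))
  have hl₁o : orderOf l₁ = r := by
    refine orderOf_eq_prime ?_ ?_
    · apply Subtype.ext
      show zz L (mulL F lam hlam0) ^ r = 1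
      rw [zz_pow, hT.pow_eq, hzz1]
    · intro h
      apply hmne
      have h1 : zz L (mulL F lam hlam0) = 1 := congrArg Subtype.val h
      refine LinearEquiv.ext fun v => ?_
      exact congrArg Prod.fst (LinearEquiv.congr_fun h1 (v, 0))
  have hl₂o : orderOf l₂ = r := by
    refine orderOf_eq_prime ?_ ?_
    · apply Subtype.ext
      show yy L (mulL F lam hlam0) ^ r = 1
      rw [yy_pow, hT.pow_eq, hyy1]
    · intro h
      apply hmne
      have h1 : yy L (mulL F lam hlam0) = 1 := congrArg Subtype.val h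
      refine LinearEquiv.ext fun v => ?_
      exact congrArg Prod.snd (LinearEquiv.congr_fun h1 (0, v))
  have hl : Commute l₁ l₂ := Subtype.ext rfl
  -- the isometries
  obtain ⟨w, hwO, hw1, hw2⟩ := exists_w hk hQ
  obtain ⟨Y, Z, hYO, hZO, hYZ, hYo, hYfix, hZ1, hZ2⟩ := exists_yz hk hQQ hra
  set X' : E (prodForm Q Q) := ⟨zz L (mulL F cc hcc0), mem_of_odd hG hccO hodda hccp⟩ with hX'
  set Y' : E (prodForm Q Q) := ⟨Y, Cfsg.Agent.ETable.Orth.mem_E_of_pow hG hYO hodda (by rw [← hYo, pow_orderOf_eq_one])⟩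
    with hY'
  set K₁ : E (prodForm Q Q) := ⟨yy L (w ^ 2), by
    have h1 := Cfsg.Agent.ETable.Orth.sq_mem_E hG (hyyO hwO)
    rwa [← pow_two, yy_pow] at h1⟩ with hK₁
  set K₂ : E (prodForm Q Q) := ⟨Z ^ 2, by
    have h1 := Cfsg.Agent.ETable.Orth.sq_mem_E hG hZO
    rwa [← pow_two] at h1⟩ with hK₂
  have hX'o : orderOf X' = r ^ a := by
    rw [← Subgroup.orderOf_coe]
    show orderOf (zz L (mulL F cc hcc0)) = r ^ a
    apply Nat.dvd_antisymm
    · apply orderOf_dvd_of_pow_eq_one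
      rw [zz_pow, hccp, hzz1]
    · have h1 := pow_orderOf_eq_one (zz L (mulL F cc hcc0))
      rw [zz_pow] at h1
      have h2 : (mulL F cc hcc0 ^ orderOf (zz L (mulL F cc hcc0))) 1 = 1 :=
        congrArg Prod.fst (LinearEquiv.congr_fun h1 (1, 0))
      rw [mulL_pow, mul_one] at h2
      have h3 := orderOf_dvd_of_pow_eq_one h2
      rwa [hco] at h3
  have hY'o : orderOf Y' = r ^ a := by
    rw [← Subgroup.orderOf_coe]
    exact hYo
  refine cong_of_cover (c := c) (a := a) hπ hr hpp hkc hcc hcr hcp hfac hl₁o hl₂o hl ?_ hX'o hY'o ?_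
    (m₁ := Fintype.card F ^ (k - 1) - 1) (m₂ := Fintype.card F ^ k - 1) (K₁ := K₁) (K₂ := K₂) ?_ ?_
    (hnd _ (by omega) (by omega)) ?_ ?_ ?_ (hnd _ (by omega) (by omega)) ?_
  · -- `C (l₁, l₂)` has no `p`-elements
    intro x hx₁ hx₂ j hj
    have h1 : Commute (x : (L × L) ≃ₗ[F] (L × L)) ((mulL F lam hlam0).prodCongr (LinearEquiv.refl F L)) :=
      (congrArg Subtype.val hx₁.eq).symm
    obtain ⟨t, t', hts⟩ := block hfix h1
    have h2 : Commute t (mulL F lam hlam0) := by
      refine LinearEquiv.ext fun v => ?_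
      have h3 := LinearEquiv.congr_fun h1.eq (v, 0)
      rw [hts] at h3
      exact congrArg Prod.fst h3
    have h2' : Commute t' (mulL F lam hlam0) := by
      have h3 : Commute (x : (L × L) ≃ₗ[F] (L × L)) (yy L (mulL F lam hlam0)) := (congrArg Subtype.val hx₂.eq).symm
      rw [hts] at h3
      exact block' h3
    have htO : t ∈ O Q := by
      intro v
      have h2 := E_le_O x.2 (v, 0)
      rw [hts, prodForm_apply, prodForm_apply] at h2
      change Q (t v) + Q (t' 0) = Q v + Q 0 at h2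
      rw [map_zero, QuadraticMap.map_zero, add_zero, add_zero] at h2
      exact h2
    have htO' : t' ∈ O Q := by
      intro v
      have h2 := E_le_O x.2 (0, v)
      rw [hts, prodForm_apply, prodForm_apply] at h2
      change Q (t 0) + Q (t' v) = Q 0 + Q v at h2
      rw [map_zero, QuadraticMap.map_zero, zero_add, zero_add] at h2
      exact h2
    have hpw : ∀ m : ℕ, (x : (L × L) ≃ₗ[F] (L × L)) ^ m = (t ^ m).prodCongr (t' ^ m) := by
      intro m
      induction m with
      | zero => rfl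
      | succ m ih =>
        rw [pow_succ, ih, hts]
        rfl
    have hj' : (x : (L × L) ≃ₗ[F] (L × L)) ^ (p ^ j) = 1 := congrArg Subtype.val hj
    rw [hpw] at hj'
    have key : ∀ t : L ≃ₗ[F] L, t ∈ O Q → Commute t (mulL F lam hlam0) → t ^ (p ^ j) = 1 → t = 1 := by
      intro t ht htc htp
      obtain ⟨b, hb, hb1, -⟩ := hT.cen t ht htc
      apply hb1
      have hbp : ∀ m : ℕ, (t ^ m) 1 = b ^ m := by
        intro m
        induction m with
        | zero => rw [pow_zero, pow_zero]; rfl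
        | succ m ih =>
          rw [pow_succ', LinearEquiv.mul_apply, ih, pow_succ']
          exact hb _
      have h3 := hbp (p ^ j)
      rw [htp] at h3
      have h5 : (b - 1) ^ (p ^ j) = 0 := by rw [sub_pow_char_pow, one_pow, ← h3]; exact sub_self _
      exact sub_eq_zero.1 (pow_eq_zero_iff (pow_pos hpp.pos j).ne' |>.1 h5)
    have h4 : t = 1 := key t htO h2 (by
      refine LinearEquiv.ext fun v => ?_
      exact congrArg Prod.fst (LinearEquiv.congr_fun hj' (v, 0)))
    have h4' : t' = 1 := key t' htO' h2' (by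
      refine LinearEquiv.ext fun v => ?_
      exact congrArg Prod.snd (LinearEquiv.congr_fun hj' (0, v)))
    apply Subtype.ext
    rw [hts, h4, h4']
    rfl
  · -- the two classes
    intro i j hij
    obtain ⟨g, hg⟩ := isConj_iff.1 hij
    have hg' : (g : (L × L) ≃ₗ[F] (L × L)) * zz L (mulL F cc hcc0) ^ i * (g : (L × L) ≃ₗ[F] (L × L))⁻¹ = Y ^ j :=
      congrArg Subtype.val hg
    have h1 : (Y ^ j) ((g : (L × L) ≃ₗ[F] (L × L)) (0, 1)) = (g : (L × L) ≃ₗ[F] (L × L)) (0, 1) := by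
      rw [← hg', LinearEquiv.mul_apply, LinearEquiv.mul_apply]
      have h2 : (g : (L × L) ≃ₗ[F] (L × L))⁻¹ ((g : (L × L) ≃ₗ[F] (L × L)) (0, 1)) = (0, 1) :=
        (g : (L × L) ≃ₗ[F] (L × L)).symm_apply_apply _
      rw [h2, zz_pow]
      congr 1
      exact Prod.ext (LinearEquiv.map_zero (mulL F cc hcc0 ^ i)) rfl
    rcases hYfix j _ h1 with h2 | h2
    · exfalso
      have h3 := (LinearEquiv.map_eq_zero_iff _).1 h2
      exact one_ne_zero (congrArg Prod.snd h3)
    · apply Subtype.ext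
      show zz L (mulL F cc hcc0) ^ i = 1
      rw [h2, mul_inv_eq_one] at hg'
      exact mul_eq_left.1 hg'
  · exact Subtype.ext rfl
  · apply Subtype.ext
    show (yy L (w ^ 2)) ^ (Fintype.card F ^ (k - 1) - 1) = 1
    rw [yy_pow, ← pow_mul, mul_comm, pow_mul, hw1, one_pow, hyy1]
  · intro h
    obtain ⟨b, hb⟩ := (hker K₁).1 (MonoidHom.mem_ker.2 h)
    have h1 : (1 : L) = b • 1 := congrArg Prod.fst (hb (1, 0))
    have hb1 : b = 1 := by
      have h9 : (b - 1) • (1 : L) = 0 := by rw [sub_smul, ← h1, one_smul, sub_self]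
      exact sub_eq_zero.1 ((smul_eq_zero.1 h9).resolve_right one_ne_zero)
    apply hw2
    refine LinearEquiv.ext fun v => ?_
    have h2 : (w ^ 2) v = b • v := congrArg Prod.snd (hb (0, v))
    rw [h2, hb1, one_smul]
    rfl
  · exact Subtype.ext (hYZ.pow_right 2).eq
  · apply Subtype.ext
    show (Z ^ 2) ^ (Fintype.card F ^ k - 1) = 1
    rw [← pow_mul, mul_comm, pow_mul, hZ1, one_pow]
  · intro h
    obtain ⟨b, hb⟩ := (hker K₂).1 (MonoidHom.mem_ker.2 h)
    exact hZ2 b hb

end Cfsg.Agent.H556.OZ
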